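import Mathlib
import Cfsg.Prelude.Def_Blocks
import Cfsg.Agent.Lib.Helper16.ExtFirst
import Cfsg.Agent.S0968

/-!
# Roots of a block of defect one are conjugate under the normalizer

For a Sylow `p`-subgroup `P` of order `p` and a block `B` with defect group `P`: if `θ`, `θ'` are
irreducible characters of `C_G(P)` trivial on `P` whose blocks both induce `B`, then `θ'` is the
conjugate of `θ` under an element of `N_G(P)`.
-/

set_option autoImplicit false

namespace Cfsg.Agent.Lib.Helper16.RootConj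

open Cfsg Cfsg.Agent.Lib.Helper77.LocalRing Cfsg.Agent.Lib.Helper77.CentralChar
  Cfsg.Agent.Lib.Helper77.BlockIdem Cfsg.Agent.Lib.Helper16.ZR
  Cfsg.Agent.Lib.Helper16.FirstMain Cfsg.Agent.Lib.Helper77.BPTransport
  Cfsg.Agent.Lib.Helper16.Transfer Cfsg.Agent.Lib.Helper16.MinMax
  Cfsg.Agent.Lib.Helper16.IndBlock Cfsg.Agent.Lib.Helper16.Normal
  Cfsg.Agent.Lib.Helper16.Cover3 Cfsg.Agent.Lib.Helper16.SylowBlocks
  Cfsg.Agent.Lib.Helper16.ExtFirst

universe u
variable {G : Type u} [Group G] {M : Ideal AlgInt}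

/-- A block of `L` (with `P ≤ L ≤ N_G(P)`) inducing a block with defect group `P` has defect
group `P`. -/
theorem defect_of_induced [Finite G] (p : ℕ) [Fact p.Prime] (hM : IsPModular p M)
    (P L : Subgroup G) (hPL : P ≤ L) (hLN : L ≤ Subgroup.normalizer (P : Set G))
    (B : Set (IrrCharacter G)) (hP : IsDefectGroup p M B P)
    (b : Set (IrrCharacter L)) (h2 : IsInducedBlock M L b B) :
    IsDefectGroup p M b (P.subgroupOf L) := by
  classical
  have hMp := isPrime_of_isPModular hM
  have hPp : IsPGroup p P := by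
    obtain ⟨g, -, hg⟩ := isDefectGroup_iff.mp hP
    exact hg.2.1
  obtain ⟨Db, hDb⟩ := exists_defectGroup hM _ h2.1
  have hle : P.subgroupOf L ≤ Db := by
    refine le_trans ?_ (Cfsg.Agent.S0912.result p M hM _ h2.1 Db hDb)
    apply le_sSup
    refine ⟨(Subgroup.normal_subgroupOf_iff_le_normalizer hPL).mpr hLN, ?_⟩
    exact isPGroup_subgroupOf P L hPp
  obtain ⟨E, hE, hDE⟩ := defectGroup_le_of_induced hM L _ B h2 Db hDb
  obtain ⟨x, hx⟩ := defectGroup_conj hM B h2.2.1 hP hE
  have hcard : Nat.card Db ≤ Nat.card (P.subgroupOf L) := by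
    have e1 : Nat.card (Db.map L.subtype) = Nat.card Db :=
      Subgroup.card_map_of_injective (Subgroup.subtype_injective L)
    have e2 : Nat.card E = Nat.card P := by
      rw [hx]
      exact Subgroup.card_map_of_injective (MulAut.conj x).injective
    have e3 : Nat.card (P.subgroupOf L) = Nat.card P :=
      Nat.card_congr (sIso P L hPL).toEquiv
    rw [e3, ← e2, ← e1]
    exact Subgroup.card_le_of_le hDE
  have := Subgroup.eq_of_le_of_card_ge hle hcard
  rw [this]
  exact hDb

theorem centralizer_normal_in_normalizer (P : Subgroup G) :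
    ((Subgroup.centralizer (P : Set G)).subgroupOf (Subgroup.normalizer (P : Set G))).Normal := by
  constructor
  intro n hn g
  rw [Subgroup.mem_subgroupOf] at hn ⊢
  rw [Subgroup.mem_centralizer_iff] at hn ⊢
  intro x hx
  have hg := g.2
  rw [Subgroup.mem_normalizer_iff] at hg
  have hx' : (g : G)⁻¹ * x * (g : G) ∈ P := by
    have := (hg ((g : G)⁻¹ * x * (g : G))).mpr
    apply this
    simpa [mul_assoc] using hx
  have h1 := hn _ hx'
  simp only [Subgroup.coe_mul, Subgroup.coe_inv]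
  calc x * ((g : G) * (n : G) * (g : G)⁻¹)
      = (g : G) * (((g : G)⁻¹ * x * (g : G)) * (n : G)) * (g : G)⁻¹ := by group
    _ = (g : G) * ((n : G) * ((g : G)⁻¹ * x * (g : G))) * (g : G)⁻¹ := by rw [h1]
    _ = (g : G) * (n : G) * (g : G)⁻¹ * x := by group

theorem root_conj_aux [Finite G] (p : ℕ) [Fact p.Prime] (M : Ideal AlgInt)
    (hM : IsPModular p M) (P : Sylow p G) (hP : Nat.card P = p) (B : Set (IrrCharacter G))
    (hBP : IsDefectGroup p M B P)
    (C : Subgroup G) (hC : C = Subgroup.centralizer ((P : Subgroup G) : Set G))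
    (θ θ' : IrrCharacter C)
    (hθP : ∀ x : C, (x : G) ∈ (P : Subgroup G) → (θ : C → ℂ) x = (θ : C → ℂ) 1)
    (hθ'P : ∀ x : C, (x : G) ∈ (P : Subgroup G) → (θ' : C → ℂ) x = (θ' : C → ℂ) 1)
    (h : IsInducedBlock M C (blockOf M (θ : C → ℂ)) B)
    (h' : IsInducedBlock M C (blockOf M (θ' : C → ℂ)) B) :
    ∃ n : G, n ∈ Subgroup.normalizer ((P : Subgroup G) : Set G) ∧
      ∀ c c' : C, (c' : G) = n * c * n⁻¹ → (θ' : C → ℂ) c = (θ : C → ℂ) c' := by
  classical
  have hMp := isPrime_of_isPModular hM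
  have hCN : C ≤ Subgroup.normalizer ((P : Subgroup G) : Set G) := by
    rw [hC]; exact Subgroup.centralizer_le_normalizer _
  have hPab : ∀ a ∈ (P : Subgroup G), ∀ b ∈ (P : Subgroup G), a * b = b * a := by
    have hcyc : IsCyclic (P : Subgroup G) :=
      isCyclic_of_prime_card (p := p) hP
    intro a ha b hb
    have := hcyc.isMulCommutative
    have h1 := this.is_comm.comm ⟨a, ha⟩ ⟨b, hb⟩
    exact congrArg Subtype.val h1
  have hPC : (P : Subgroup G) ≤ C := by
    intro a ha
    rw [hC, Subgroup.mem_centralizer_iff]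
    intro b hb
    exact hPab b hb a ha
  have hn : (C.subgroupOf (Subgroup.normalizer ((P : Subgroup G) : Set G))).Normal := by
    rw [hC]; exact centralizer_normal_in_normalizer (P : Subgroup G)
  obtain ⟨g, hg⟩ := conj_of_induced p hM (P : Subgroup G) C hC.ge hCN B h.2.1 hBP _ _ h h'
  have hθmem : pull (sIso C _ hCN) θ ∈ pull (sIso C _ hCN) '' blockOf M (θ : C → ℂ) :=
    ⟨θ, mem_blockOf_self hMp θ, rfl⟩
  obtain ⟨θ'', hθ''b, hθ''⟩ := hg _ hθmem
  -- values of `θ''`
  have hval : ∀ c c' : C, (c' : G) = (g : G) * c * (g : G)⁻¹ →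
      (θ'' : C → ℂ) c = (θ : C → ℂ) c' := by
    intro c c' hcc
    have h1 := congrArg (fun ψ : IrrCharacter
        (C.subgroupOf (Subgroup.normalizer ((P : Subgroup G) : Set G))) =>
      (ψ : C.subgroupOf (Subgroup.normalizer ((P : Subgroup G) : Set G)) → ℂ)
        ((sIso C _ hCN).symm c)) hθ''
    rw [pull_apply, MulEquiv.apply_symm_apply, cI_apply, pull_apply] at h1
    rw [h1]
    refine congrArg _ (Subtype.ext ?_)
    rw [coe_sIso]
    simp only [Subgroup.coe_mul, Subgroup.coe_inv]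
    rw [coe_sIso_symm', hcc]
  -- `θ''` is trivial on `P`
  have hgN : (g : G) ∈ Subgroup.normalizer ((P : Subgroup G) : Set G) := g.2
  have hconjP : ∀ x : G, x ∈ (P : Subgroup G) → (g : G) * x * (g : G)⁻¹ ∈ (P : Subgroup G) := by
    intro x hx
    rw [Subgroup.mem_normalizer_iff] at hgN
    exact (hgN x).mp hx
  have hθ''P : ∀ x : C, (x : G) ∈ (P : Subgroup G) → (θ'' : C → ℂ) x = (θ'' : C → ℂ) 1 := by
    intro x hx
    have hx' := hconjP x hx
    rw [hval x ⟨(g : G) * x * (g : G)⁻¹, hPC hx'⟩ rfl, hval 1 1 (by simp)]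
    exact hθP _ hx'
  -- uniqueness
  have hdef : IsDefectGroup p M (blockOf M (θ' : C → ℂ)) ((P : Subgroup G).subgroupOf C) :=
    defect_of_induced p hM (P : Subgroup G) C hPC hCN B hBP _ h'
  have hPp : IsPGroup p ((P : Subgroup G).subgroupOf C) :=
    isPGroup_subgroupOf (P : Subgroup G) C P.isPGroup'
  have htop : (P : Subgroup G).subgroupOf C ⊔
      Subgroup.centralizer (((P : Subgroup G).subgroupOf C : Subgroup C) : Set C) = ⊤ := by
    rw [eq_top_iff]
    intro c _
    apply Subgroup.mem_sup_right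
    rw [Subgroup.mem_centralizer_iff]
    intro x hx
    rw [SetLike.mem_coe, Subgroup.mem_subgroupOf] at hx
    have hc : (c : G) ∈ Subgroup.centralizer ((P : Subgroup G) : Set G) := hC ▸ c.2
    rw [Subgroup.mem_centralizer_iff] at hc
    apply Subtype.ext
    simp only [Subgroup.coe_mul]
    exact hc _ hx
  have huniq := (Cfsg.Agent.S0968.result p M hM _ hPp htop _ h'.1 hdef).1
  obtain ⟨θ₀, -, hθ₀⟩ := huniq
  have e1 : θ' = θ₀ := hθ₀ θ' ⟨mem_blockOf_self hMp θ', fun x hx => hθ'P x (by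
    rwa [Subgroup.mem_subgroupOf] at hx)⟩
  have e2 : θ'' = θ₀ := hθ₀ θ'' ⟨hθ''b, fun x hx => hθ''P x (by
    rwa [Subgroup.mem_subgroupOf] at hx)⟩
  refine ⟨(g : G), g.2, ?_⟩
  intro c c' hcc
  rw [e1, ← e2]
  exact hval c c' hcc

/-- If `P` is a Sylow `p`-subgroup of order `p`, `B` a block with defect group `P` and `θ`, `θ'`
irreducible characters of `C_G(P)` trivial on `P` whose blocks induce `B`, then `θ'` is an
`N_G(P)`-conjugate of `θ`. -/
theorem root_conj [Finite G] (p : ℕ) [Fact p.Prime] (M : Ideal AlgInt)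
    (hM : IsPModular p M) (P : Sylow p G) (hP : Nat.card P = p) (B : Set (IrrCharacter G))
    (hBP : IsDefectGroup p M B P)
    (θ θ' : IrrCharacter (Subgroup.centralizer ((P : Subgroup G) : Set G)))
    (hθP : ∀ x : Subgroup.centralizer ((P : Subgroup G) : Set G), (x : G) ∈ (P : Subgroup G) →
      (θ : Subgroup.centralizer ((P : Subgroup G) : Set G) → ℂ) x =
        (θ : Subgroup.centralizer ((P : Subgroup G) : Set G) → ℂ) 1)
    (hθ'P : ∀ x : Subgroup.centralizer ((P : Subgroup G) : Set G), (x : G) ∈ (P : Subgroup G) →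
      (θ' : Subgroup.centralizer ((P : Subgroup G) : Set G) → ℂ) x =
        (θ' : Subgroup.centralizer ((P : Subgroup G) : Set G) → ℂ) 1)
    (h : IsInducedBlock M (Subgroup.centralizer ((P : Subgroup G) : Set G))
      (blockOf M (θ : Subgroup.centralizer ((P : Subgroup G) : Set G) → ℂ)) B)
    (h' : IsInducedBlock M (Subgroup.centralizer ((P : Subgroup G) : Set G))
      (blockOf M (θ' : Subgroup.centralizer ((P : Subgroup G) : Set G) → ℂ)) B) :
    ∃ n : G, n ∈ Subgroup.normalizer ((P : Subgroup G) : Set G) ∧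
      ∀ c c' : Subgroup.centralizer ((P : Subgroup G) : Set G), (c' : G) = n * c * n⁻¹ →
        (θ' : Subgroup.centralizer ((P : Subgroup G) : Set G) → ℂ) c =
          (θ : Subgroup.centralizer ((P : Subgroup G) : Set G) → ℂ) c' :=
  root_conj_aux p M hM P hP B hBP _ rfl θ θ' hθP hθ'P h h'

end Cfsg.Agent.Lib.Helper16.RootConj
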