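import Mathlib
import Cfsg.Agent.Lib.Helper12.AOStmt

/-!
Piece CN of S4068 (helper16): if all nonidentity elements have prime order and commuting
nonidentity elements have equal orders, then centralizers of nonidentity elements are `p`-groups,
hence nilpotent.
-/

set_option autoImplicit false
set_option linter.unusedVariables false
set_option linter.style.haveILetI false

universe u

namespace Cfsg.Agent.Lib.Helper16.AOCN

open Cfsg.Agent.Lib.Helper12

theorem main : AOStmt.CN.{u} := by
  intro G _ _ hE hcent g hg
  have hp : (orderOf g).Prime := hE g hg
  haveI : Fact (orderOf g).Prime := ⟨hp⟩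
  have hP : IsPGroup (orderOf g) (Subgroup.centralizer ({g} : Set G)) := by
    intro y
    refine ⟨1, ?_⟩
    rw [pow_one]
    by_cases hy : (y : G) = 1
    · have : y = 1 := Subtype.ext hy
      rw [this, one_pow]
    · have ho := hcent g hg (y : G) y.2 hy
      apply Subtype.ext
      rw [Subgroup.coe_pow, Subgroup.coe_one, ← ho]
      exact pow_orderOf_eq_one _
  exact hP.isNilpotent

end Cfsg.Agent.Lib.Helper16.AOCN
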