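import Mathlib
import Cfsg.Agent.Lib.Helper12.AOStmt

/-!
Piece TNC of S4068 (helper16): a cyclic Sylow 2-subgroup (of order 2, as all elements have prime
order) gives a normal complement, hence solvability.
-/

set_option autoImplicit false
set_option linter.unusedVariables false
set_option linter.style.haveILetI false

universe u

namespace Cfsg.Agent.Lib.Helper16.AOTNC

open Cfsg.Agent.Lib.Helper12

theorem main : AOStmt.TNC.{u} := by
  intro hS hI G _ _ hns hE h3 T h2 hcyc
  haveI : Fact (Nat.Prime 2) := ⟨Nat.prime_two⟩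
  apply hns
  have hT2 : Nat.card (T : Subgroup G) = 2 := by
    haveI := hcyc
    obtain ⟨g, hg⟩ := IsCyclic.exists_generator (α := (T : Subgroup G))
    have ho : orderOf g = Nat.card (T : Subgroup G) := orderOf_eq_card_of_forall_mem_zpowers hg
    have hdvd : 2 ∣ Nat.card (T : Subgroup G) := T.dvd_card_of_dvd_card h2
    have hne : (g : G) ≠ 1 := by
      intro h1
      have h11 : orderOf (g : G) = 1 := by rw [h1, orderOf_one]
      rw [Subgroup.orderOf_coe, ho] at h11
      rw [h11] at hdvd
      omega
    have hp := hE (g : G) hne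
    rw [Subgroup.orderOf_coe, ho] at hp
    exact ((Nat.prime_dvd_prime_iff_eq Nat.prime_two hp).mp hdvd).symm
  obtain ⟨K, hKn, hKc⟩ := hI T hT2
  haveI := hKn
  have hKcard : Nat.card K = (T : Subgroup G).index := (hKc.index_eq_card).symm
  have hKidx : K.index = Nat.card (T : Subgroup G) := hKc.symm.index_eq_card
  have h2mem : 2 ∈ (Nat.card G).primeFactors :=
    Nat.mem_primeFactors.mpr ⟨Nat.prime_two, h2, Nat.card_pos.ne'⟩
  haveI hKs : Group.IsSolvable K := by
    apply hS
    rw [hKcard]
    have hodd : ¬ 2 ∣ (T : Subgroup G).index := T.not_dvd_index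
    have hdvd : (T : Subgroup G).index ∣ Nat.card G := Subgroup.index_dvd_card _
    have hsub : (T : Subgroup G).index.primeFactors ⊆ (Nat.card G).primeFactors.erase 2 := by
      intro p hp
      rw [Finset.mem_erase]
      have hp' := Nat.mem_primeFactors.mp hp
      refine ⟨?_, Nat.mem_primeFactors.mpr ⟨hp'.1, hp'.2.1.trans hdvd, Nat.card_pos.ne'⟩⟩
      rintro rfl
      exact hodd hp'.2.1
    have := Finset.card_le_card hsub
    rw [Finset.card_erase_of_mem h2mem, h3] at this
    omega
  haveI hQ : Group.IsSolvable (G ⧸ K) := by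
    apply hS
    have hcard : Nat.card (G ⧸ K) = K.index := rfl
    rw [hcard, hKidx, hT2, Nat.Prime.primeFactors Nat.prime_two]
    simp
  exact Group.isSolvable_of_ker_le_range K.subtype (QuotientGroup.mk' K) (by simp)

end Cfsg.Agent.Lib.Helper16.AOTNC
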