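import Mathlib
import Cfsg.Agent.Lib.Helper12.AOStmt

/-!
Piece TNN of S4068 (helper16): a normal Sylow 2-subgroup of a group with three prime divisors
makes the group solvable.
-/

set_option autoImplicit false
set_option linter.unusedVariables false
set_option linter.style.haveILetI false

universe u

namespace Cfsg.Agent.Lib.Helper16.AOTNN

open Cfsg.Agent.Lib.Helper12

theorem main : AOStmt.TNN.{u} := by
  intro hS G _ _ hns h3 T h2 hN
  haveI := hN
  apply hns
  haveI : Fact (Nat.Prime 2) := ⟨Nat.prime_two⟩
  have hTp : IsPGroup 2 (T : Subgroup G) := T.isPGroup'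
  haveI : Group.IsNilpotent (T : Subgroup G) := hTp.isNilpotent
  haveI hTs : Group.IsSolvable (T : Subgroup G) := inferInstance
  haveI hQ : Group.IsSolvable (G ⧸ (T : Subgroup G)) := by
    apply hS
    have hcard : Nat.card (G ⧸ (T : Subgroup G)) = (T : Subgroup G).index := rfl
    rw [hcard]
    have hodd : ¬ 2 ∣ (T : Subgroup G).index := T.not_dvd_index
    have hdvd : (T : Subgroup G).index ∣ Nat.card G := Subgroup.index_dvd_card _
    have hsub : (T : Subgroup G).index.primeFactors ⊆ (Nat.card G).primeFactors.erase 2 := by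
      intro p hp
      rw [Finset.mem_erase]
      have hp' := Nat.mem_primeFactors.mp hp
      refine ⟨?_, Nat.mem_primeFactors.mpr ⟨hp'.1, hp'.2.1.trans hdvd, Nat.card_pos.ne'⟩⟩
      rintro rfl
      exact hodd hp'.2.1
    have h2mem : 2 ∈ (Nat.card G).primeFactors :=
      Nat.mem_primeFactors.mpr ⟨Nat.prime_two, h2, Nat.card_pos.ne'⟩
    have := Finset.card_le_card hsub
    rw [Finset.card_erase_of_mem h2mem, h3] at this
    exact this
  exact Group.isSolvable_of_ker_le_range (T : Subgroup G).subtype
    (QuotientGroup.mk' (T : Subgroup G)) (by simp)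

end Cfsg.Agent.Lib.Helper16.AOTNN
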