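import Mathlib
import Cfsg.Agent.Lib.Helper12.AOStmt
import Cfsg.Agent.S1230

/-!
Piece TOPSL of S4068 (helper16): from the landed S1230, a group with a non-normal non-cyclic
Sylow 2-subgroup and elementary abelian involution centralizers is `PSL₂(F)`, `|F| = 2 ^ f`,
`f ≥ 2`.
-/

set_option autoImplicit false
set_option linter.unusedVariables false
set_option linter.style.haveILetI false

universe u

namespace Cfsg.Agent.Lib.Helper16.AOTOPSL

open Cfsg.Agent.Lib.Helper12

theorem main : AOStmt.ToPSL.{u} := by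
  intro G _ _ hnn hnc hinv
  haveI : Fact (Nat.Prime 2) := ⟨Nat.prime_two⟩
  let T : Sylow 2 G := default
  obtain ⟨F, iF, iFt, hcard, hiso⟩ := Cfsg.Agent.S1230.result T (hnc T) (hnn T) hinv
  obtain ⟨k, hk⟩ := IsPGroup.iff_card.mp T.isPGroup'
  refine ⟨F, iF, iFt, k, ?_, ?_, hiso⟩
  · by_contra hlt
    apply hnc T
    have hk01 : k = 0 ∨ k = 1 := by omega
    rcases hk01 with rfl | rfl
    · rw [pow_zero] at hk
      haveI : Subsingleton (T : Subgroup G) := (Nat.card_eq_one_iff_unique.mp hk).1
      exact isCyclic_of_subsingleton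
    · rw [pow_one] at hk
      exact isCyclic_of_prime_card hk
  · rw [hcard, hk]

end Cfsg.Agent.Lib.Helper16.AOTOPSL
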