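import Mathlib
import Cfsg.Agent.Lib.Helper76.BrRBStmt
import Cfsg.Agent.Lib.CT.Wedderburn
import Cfsg.Agent.Lib.CT.Ops
import Cfsg.Agent.Lib.CT.Kernel
import Cfsg.Agent.Lib.Helper74.BLCore
import Cfsg.Agent.Lib.Helper80.DefOneLoc
import Cfsg.Agent.Lib.Helper81.BrT2
import Cfsg.Agent.Lib.Helper93.BrauerB0
import Cfsg.Agent.Lib.Helper81.BrA1

/-!
S4504 parts R+B, piece `NCE`: `|N : C| = ξ(1)`.
-/

set_option autoImplicit false
set_option linter.style.haveILetI false

namespace Cfsg.Agent.Lib.Helper16.BrRBNCE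

open Cfsg Cfsg.Agent.Lib.Helper76.BrRB Cfsg.Agent.Lib.CT Cfsg.Agent.Lib.CT.Wedderburn
  Cfsg.Agent.Lib.CT.Ops
open scoped ComplexConjugate Classical

universe u

theorem main : NCE.{u} := by
  intro L _ _ p _ c h
  obtain ⟨hfle, hnorm, ψ₀, hψ₀, hsupp⟩ := h
  by_contra hne0
  have hp : p.Prime := Fact.out
  have hξc : IsCharacter L c.ξ := isCharacter_of_irr c.hξ
  have hdegc : (charDegree c.ξ : ℂ) = c.ξ 1 := char_natCast_charDegree hξc
  have hdpos : 0 < charDegree c.ξ := irr_charDegree_pos c.hξ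
  have hdeg := c.hdeg
  have hfp : 2 * (Subgroup.centralizer ((c.P : Subgroup L) : Set L)).relIndex
      (Subgroup.normalizer ((c.P : Subgroup L) : Set L)) + 1 < p := by omega
  have hodd : p ≠ 2 := by
    have := c.hp5
    omega
  have hP : Nat.card c.P = p := c.hP
  -- the irreducible character as a subtype
  obtain ⟨ξ, hξdef⟩ : ∃ ξ : IrrCharacter L, (ξ : L → ℂ) = c.ξ := ⟨⟨c.ξ, c.hξ⟩, rfl⟩
  rw [← hξdef] at hsupp hnorm hdegc hξc hdpos
  obtain ⟨χb, hreg, hab⟩ :=
    Cfsg.Agent.Lib.Helper81.BrT2.exists_pconj p c.P hP ξ hfp ψ₀ hψ₀ hsupp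
  have hne : ξ ≠ χb := by
    intro h
    have h1 := hab 1 (one_mem _)
    rw [← h] at h1
    have hfin : ((c.P : Subgroup L) : Set L).Finite := Set.toFinite _
    rw [finsum_mem_eq_finite_toFinset_sum _ hfin] at h1
    have hterm : ∀ u ∈ hfin.toFinset, (0 : ℝ) ≤
        (((ξ : L → ℂ) (u * 1) * conj ((ξ : L → ℂ) (u * 1))).re) := by
      intro u _
      rw [Complex.mul_conj]
      simp only [Complex.ofReal_re]
      exact Complex.normSq_nonneg _
    have h2 := congrArg Complex.re h1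
    rw [Complex.re_sum, Complex.zero_re] at h2
    have h3 := (Finset.sum_eq_zero_iff_of_nonneg hterm).mp h2 1 (by simp)
    rw [mul_one, Complex.mul_conj] at h3
    simp only [Complex.ofReal_re] at h3
    have h4 : (ξ : L → ℂ) 1 = 0 := Complex.normSq_eq_zero.mp h3
    rw [← hdegc] at h4
    have : charDegree (ξ : L → ℂ) = 0 := by exact_mod_cast h4
    omega
  obtain ⟨X, Y, ε, ε', hX, hXY, hε, hε', hXsing, hYsing, hreg', hYavg⟩ :=
    Cfsg.Agent.Lib.Helper93.BrauerB0.b0_structure p hodd c.P hP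
  have hf1 := Cfsg.Agent.Lib.Helper81.BrA1.core_count p c.P hP c.hgen ξ χb hne hreg hab _ hnorm hfp
    X Y ε ε' hX hXY hε hε' hXsing hYsing hreg' hYavg
  letI : Fintype ↥(Subgroup.centralizer ((c.P : Subgroup L) : Set L)) := Fintype.ofFinite _
  have hres : IsCharacter ↥(Subgroup.centralizer ((c.P : Subgroup L) : Set L))
      (fun k : ↥(Subgroup.centralizer ((c.P : Subgroup L) : Set L)) => (ξ : L → ℂ) (k : L)) :=
    isCharacter_restrict _ hξc
  have hn1 : classInner
      (fun k : ↥(Subgroup.centralizer ((c.P : Subgroup L) : Set L)) => (ξ : L → ℂ) (k : L))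
      (fun k : ↥(Subgroup.centralizer ((c.P : Subgroup L) : Set L)) => (ξ : L → ℂ) (k : L))
      = 1 := by
    unfold classInner
    have e : ∑ᶠ k ∈ ((Subgroup.centralizer ((c.P : Subgroup L) : Set L) : Subgroup L) : Set L),
        (ξ : L → ℂ) k * conj ((ξ : L → ℂ) k) =
        ∑ k : ↥(Subgroup.centralizer ((c.P : Subgroup L) : Set L)),
          (ξ : L → ℂ) (k : L) * conj ((ξ : L → ℂ) (k : L)) := by
      rw [← finsum_set_coe_eq_finsum_mem, finsum_eq_sum_of_fintype]
      rfl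
    have hCne : (Nat.card ↥(Subgroup.centralizer ((c.P : Subgroup L) : Set L)) : ℂ) ≠ 0 :=
      Nat.cast_ne_zero.mpr Nat.card_pos.ne'
    rw [← e, hnorm, hf1, Nat.cast_one, one_mul, inv_mul_cancel₀ hCne]
  have hirr : IsIrrCharacter ↥(Subgroup.centralizer ((c.P : Subgroup L) : Set L))
      (fun k : ↥(Subgroup.centralizer ((c.P : Subgroup L) : Set L)) => (ξ : L → ℂ) (k : L)) := by
    refine Cfsg.Agent.Lib.Helper74.BLCore.irr_of_norm_one ?_ hn1 (charDegree (ξ : L → ℂ))
      hdpos ?_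
    · refine ⟨_, _, isCharacter_add hres hres, hres, ?_⟩
      funext k
      simp
    · show (ξ : L → ℂ) ((1 : ↥(Subgroup.centralizer ((c.P : Subgroup L) : Set L))) : L) = _
      rw [Subgroup.coe_one, hdegc]
  -- every element of `P` is central
  have hcen : ∀ x : L, x ∈ (c.P : Subgroup L) → x ∈ Subgroup.center L := by
    intro x hx
    have hxC : x ∈ Subgroup.centralizer ((c.P : Subgroup L) : Set L) :=
      Cfsg.Agent.Lib.Helper80.DefOneLoc.le_centralizer c.P hP hx
    have hz : (⟨x, hxC⟩ : ↥(Subgroup.centralizer ((c.P : Subgroup L) : Set L))) ∈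
        Subgroup.center ↥(Subgroup.centralizer ((c.P : Subgroup L) : Set L)) := by
      rw [Subgroup.mem_center_iff]
      intro k
      apply Subtype.ext
      exact (Subgroup.mem_centralizer_iff.mp k.2 x hx).symm
    have hfin := Kernel.norm_eq_of_mem_center hirr hz
    have hfin' : ‖(ξ : L → ℂ) x‖ = ((ξ : L → ℂ) 1).re := hfin
    rw [hξdef] at hfin'
    exact Kernel.mem_center_of_norm_eq (isCharacter_of_irr c.hξ) c.hfaith hfin'
  apply c.hnn
  constructor
  intro n hn g
  have h1 := hcen n hn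
  rw [Subgroup.mem_center_iff] at h1
  have h2 : g * n * g⁻¹ = n := by
    rw [h1 g, mul_inv_cancel_right]
  rw [h2]
  exact hn

end Cfsg.Agent.Lib.Helper16.BrRBNCE
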