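import Mathlib
import Cfsg.Agent.Lib.Helper32.D8Stmt

/-!
Piece CFGB of S3716 (helper16, second seat): the configuration `x, y, a, b, w`.

`r, s` generate a Sylow 2-subgroup of `N` (dihedral of order 8), `z = r * r`.  Some `n ≠ 1` of
`M` is inverted by `z`; with `n' = s n s⁻¹`, either `x = n n'` (and `b = s`) or `x = n n'⁻¹`
(and `b = s z`) is a nonidentity element centralized by `b` and inverted by `z`.  Then
`a = b z`, `y = r x r⁻¹`, `w = r b`.
-/

set_option autoImplicit false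
set_option linter.unusedVariables false
set_option linter.style.haveILetI false

namespace Cfsg.Agent.Lib.Helper16.D8CFGB

open Cfsg.Agent.Lib.Helper32.D8Stmt

universe u

theorem dih1 : (DihedralGroup.r 1 : DihedralGroup 4) * DihedralGroup.r 1 *
    (DihedralGroup.r 1 * DihedralGroup.r 1) = 1 := by decide

theorem dih2 : (DihedralGroup.sr 0 : DihedralGroup 4) * DihedralGroup.sr 0 = 1 := by decide

theorem dih3 : (DihedralGroup.sr 0 : DihedralGroup 4) * DihedralGroup.r 1 *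
    (DihedralGroup.sr 0)⁻¹ = (DihedralGroup.r 1)⁻¹ := by decide

theorem dih4 : (DihedralGroup.r 1 : DihedralGroup 4) * DihedralGroup.r 1 ≠ 1 := by decide

/-- a square and a cube both trivial -/
theorem eq_one_of_sq_cube {G : Type u} [Group G] (g : G) (h2 : g * g = 1) (h3 : g ^ 3 = 1) :
    g = 1 := by
  have h : g ^ 3 = g * g * g := by rw [pow_succ, pow_two]
  rw [h, h2, one_mul] at h3
  exact h3

theorem comm_z {G : Type u} [Group G] (r b z : G) (hz : z = r * r) (hzz : z * z = 1)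
    (hbr : b * r * b⁻¹ = r⁻¹) : b * z = z * b := by
  have hzinv : z⁻¹ = z := inv_eq_of_mul_eq_one_right hzz
  have h2 : b * z * b⁻¹ = z := by
    calc b * z * b⁻¹ = (b * r * b⁻¹) * (b * r * b⁻¹) := by rw [hz]; group
      _ = r⁻¹ * r⁻¹ := by rw [hbr]
      _ = (r * r)⁻¹ := by group
      _ = z := by rw [← hz, hzinv]
  exact mul_inv_eq_iff_eq_mul.mp h2

theorem core {G : Type u} [Group G] (M : Subgroup G)
    (hcomm : ∀ m ∈ M, ∀ m' ∈ M, m * m' = m' * m) (hexp : ∀ m ∈ M, m ^ 3 = 1)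
    (r b z x : G) (hrM : ∀ m ∈ M, r * m * r⁻¹ ∈ M)
    (hz : z = r * r) (hzz : z * z = 1) (hbb : b * b = 1) (hbr : b * r * b⁻¹ = r⁻¹)
    (hxM : x ∈ M) (hx1 : x ≠ 1) (hbx : b * x * b⁻¹ = x) (hzx : z * x * z⁻¹ = x⁻¹)
    (a y w : G) (ha : a = b * z) (hy : y = r * x * r⁻¹) (hw : w = r * b) :
    a ^ 2 = 1 ∧ w ^ 2 = 1 ∧ x * y = y * x ∧ a * b = b * a ∧ a * x * a⁻¹ = x⁻¹ ∧
      a * y = y * a ∧ b * x = x * b ∧ b * y * b⁻¹ = y⁻¹ ∧ w * x * w⁻¹ = y ∧
      w * a * w⁻¹ = b ∧ y ∉ Subgroup.zpowers x := by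
  have hbinv : b⁻¹ = b := inv_eq_of_mul_eq_one_right hbb
  have hzinv : z⁻¹ = z := inv_eq_of_mul_eq_one_right hzz
  have hrzr : r * z * r = 1 := by
    have h := hzz
    rw [hz] at h
    rw [hz]
    simpa [mul_assoc] using h
  have hzr : z * r = r⁻¹ := eq_inv_of_mul_eq_one_right (by rw [← mul_assoc]; exact hrzr)
  have hbz : b * z = z * b := comm_z r b z hz hzz hbr
  have hbr' : b * r = r⁻¹ * b := mul_inv_eq_iff_eq_mul.mp hbr
  have hbri : b * r⁻¹ = r * b := by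
    calc b * r⁻¹ = r * (r⁻¹ * b) * r⁻¹ := by group
      _ = r * (b * r) * r⁻¹ := by rw [← hbr']
      _ = r * b := by group
  have hyM : y ∈ M := by rw [hy]; exact hrM x hxM
  have K : r⁻¹ * x * r = r * x⁻¹ * r⁻¹ := by
    calc r⁻¹ * x * r = r⁻¹ * (z⁻¹ * (z * x * z⁻¹) * z) * r := by group
      _ = r⁻¹ * (z⁻¹ * x⁻¹ * z) * r := by rw [hzx]
      _ = (z * r)⁻¹ * x⁻¹ * (z * r) := by group
      _ = r * x⁻¹ * r⁻¹ := by rw [hzr, inv_inv]
  have hby : b * y * b⁻¹ = y⁻¹ := by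
    rw [hy]
    calc b * (r * x * r⁻¹) * b⁻¹ = (b * r * b⁻¹) * (b * x * b⁻¹) * (b * r * b⁻¹)⁻¹ := by group
      _ = r⁻¹ * x * r := by rw [hbr, hbx, inv_inv]
      _ = r * x⁻¹ * r⁻¹ := K
      _ = (r * x * r⁻¹)⁻¹ := by group
  have hbx' : b * x = x * b := mul_inv_eq_iff_eq_mul.mp hbx
  refine ⟨?_, ?_, ?_, ?_, ?_, ?_, hbx', hby, ?_, ?_, ?_⟩
  · rw [ha, pow_two]
    calc b * z * (b * z) = b * (z * b) * z := by group
      _ = b * (b * z) * z := by rw [← hbz]
      _ = (b * b) * (z * z) := by group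
      _ = 1 := by rw [hbb, hzz, one_mul]
  · rw [hw, pow_two]
    calc r * b * (r * b) = r * (b * r) * b := by group
      _ = r * (r⁻¹ * b) * b := by rw [hbr']
      _ = b * b := by group
      _ = 1 := hbb
  · exact hcomm x hxM y hyM
  · rw [ha, mul_assoc, ← hbz]
  · rw [ha]
    calc b * z * x * (b * z)⁻¹ = b * (z * x * z⁻¹) * b⁻¹ := by group
      _ = b * x⁻¹ * b⁻¹ := by rw [hzx]
      _ = (b * x * b⁻¹)⁻¹ := by group
      _ = x⁻¹ := by rw [hbx]
  · have hay : a * y * a⁻¹ = y := by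
      rw [ha, hy]
      calc b * z * (r * x * r⁻¹) * (b * z)⁻¹ = b * ((z * r) * x * (z * r)⁻¹) * b⁻¹ := by group
        _ = b * (r⁻¹ * x * r) * b⁻¹ := by rw [hzr, inv_inv]
        _ = b * (r * x⁻¹ * r⁻¹) * b⁻¹ := by rw [K]
        _ = (b * r * b⁻¹) * (b * x * b⁻¹)⁻¹ * (b * r * b⁻¹)⁻¹ := by group
        _ = r⁻¹ * x⁻¹ * r := by rw [hbr, hbx, inv_inv]
        _ = (r⁻¹ * x * r)⁻¹ := by group
        _ = (r * x⁻¹ * r⁻¹)⁻¹ := by rw [K]
        _ = r * x * r⁻¹ := by group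
    exact mul_inv_eq_iff_eq_mul.mp hay
  · rw [hw, hy]
    calc r * b * x * (r * b)⁻¹ = r * (b * x * b⁻¹) * r⁻¹ := by group
      _ = r * x * r⁻¹ := by rw [hbx]
  · rw [hw, ha]
    calc r * b * (b * z) * (r * b)⁻¹ = r * (b * b) * z * (b⁻¹ * r⁻¹) := by group
      _ = r * z * (b * r⁻¹) := by rw [hbb, mul_one, hbinv]
      _ = r * z * (r * b) := by rw [hbri]
      _ = (r * z * r) * b := by group
      _ = b := by rw [hrzr, one_mul]
  · intro hyx
    have hxc : x ∈ Subgroup.centralizer ({b} : Set G) := by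
      rw [Subgroup.mem_centralizer_iff]
      intro h hh
      rw [Set.mem_singleton_iff] at hh
      rw [hh]
      exact hbx'
    have hyc := (Subgroup.zpowers_le.mpr hxc) hyx
    have hbyc : b * y = y * b :=
      (Subgroup.mem_centralizer_iff.mp hyc) b (Set.mem_singleton b)
    have h1 : y⁻¹ = y := by
      rw [← hby, hbyc]
      group
    have h2 : y * y = 1 := by
      calc y * y = y⁻¹ * y := by rw [h1]
        _ = 1 := inv_mul_cancel y
    have h3 : y = 1 := eq_one_of_sq_cube y h2 (hexp y hyM)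
    apply hx1
    have h4 : x = r⁻¹ * (r * x * r⁻¹) * r := by group
    rw [h4, ← hy, h3]
    group

theorem exists_x {G : Type u} [Group G] (M : Subgroup G)
    (hcomm : ∀ m ∈ M, ∀ m' ∈ M, m * m' = m' * m) (hexp : ∀ m ∈ M, m ^ 3 = 1)
    (r s z : G) (hsM : ∀ m ∈ M, s * m * s⁻¹ ∈ M) (hzM : ∀ m ∈ M, z * m * z⁻¹ ∈ M)
    (hz : z = r * r) (hzz : z * z = 1) (hss : s * s = 1) (hsr : s * r * s⁻¹ = r⁻¹)
    (hzc : ∃ m ∈ M, z * m * z⁻¹ ≠ m) :
    ∃ b : G, (b = s ∨ b = s * z) ∧ b * b = 1 ∧ b * r * b⁻¹ = r⁻¹ ∧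
      ∃ x ∈ M, x ≠ 1 ∧ b * x * b⁻¹ = x ∧ z * x * z⁻¹ = x⁻¹ := by
  have hsz : s * z = z * s := comm_z r s z hz hzz hsr
  obtain ⟨m, hm, hmz⟩ := hzc
  obtain ⟨n, hn⟩ : ∃ n, n = m * (z * m * z⁻¹)⁻¹ := ⟨_, rfl⟩
  have hnM : n ∈ M := by
    rw [hn]
    exact M.mul_mem hm (M.inv_mem (hzM m hm))
  have hn1 : n ≠ 1 := by
    intro h
    rw [hn, mul_inv_eq_one] at h
    exact hmz h.symm
  have hzn : z * n * z⁻¹ = n⁻¹ := by
    rw [hn]
    calc z * (m * (z * m * z⁻¹)⁻¹) * z⁻¹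
        = (z * m * z⁻¹) * ((z * z) * m * (z * z)⁻¹)⁻¹ := by group
      _ = (z * m * z⁻¹) * m⁻¹ := by rw [hzz, one_mul, inv_one, mul_one]
      _ = (m * (z * m * z⁻¹)⁻¹)⁻¹ := by group
  obtain ⟨n', hn'⟩ : ∃ n', n' = s * n * s⁻¹ := ⟨_, rfl⟩
  have hn'M : n' ∈ M := by
    rw [hn']
    exact hsM n hnM
  have hsn' : s * n' * s⁻¹ = n := by
    rw [hn']
    calc s * (s * n * s⁻¹) * s⁻¹ = (s * s) * n * (s * s)⁻¹ := by group
      _ = n := by rw [hss, one_mul, inv_one, mul_one]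
  have hzn' : z * n' * z⁻¹ = n'⁻¹ := by
    rw [hn']
    calc z * (s * n * s⁻¹) * z⁻¹ = (z * s) * n * (z * s)⁻¹ := by group
      _ = (s * z) * n * (s * z)⁻¹ := by rw [← hsz]
      _ = s * (z * n * z⁻¹) * s⁻¹ := by group
      _ = s * n⁻¹ * s⁻¹ := by rw [hzn]
      _ = (s * n * s⁻¹)⁻¹ := by group
  by_cases h1 : n * n' = 1
  · -- `b = s * z`, `x = n * n'⁻¹`
    refine ⟨s * z, Or.inr rfl, ?_, ?_, n * n'⁻¹, M.mul_mem hnM (M.inv_mem hn'M), ?_, ?_, ?_⟩
    · calc s * z * (s * z) = s * (z * s) * z := by group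
        _ = s * (s * z) * z := by rw [← hsz]
        _ = (s * s) * (z * z) := by group
        _ = 1 := by rw [hss, hzz, one_mul]
    · have hzrz : z * r * z⁻¹ = r := by
        rw [hz]
        group
      calc s * z * r * (s * z)⁻¹ = s * (z * r * z⁻¹) * s⁻¹ := by group
        _ = s * r * s⁻¹ := by rw [hzrz]
        _ = r⁻¹ := hsr
    · intro h2
      rw [mul_inv_eq_one] at h2
      rw [← h2] at h1
      exact hn1 (eq_one_of_sq_cube n h1 (hexp n hnM))
    · calc s * z * (n * n'⁻¹) * (s * z)⁻¹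
          = (s * (z * n * z⁻¹) * s⁻¹) * (s * (z * n' * z⁻¹) * s⁻¹)⁻¹ := by group
        _ = (s * n⁻¹ * s⁻¹) * (s * n'⁻¹ * s⁻¹)⁻¹ := by rw [hzn, hzn']
        _ = (s * n * s⁻¹)⁻¹ * (s * n' * s⁻¹) := by group
        _ = n'⁻¹ * n := by rw [← hn', hsn']
        _ = n * n'⁻¹ := hcomm n'⁻¹ (M.inv_mem hn'M) n hnM
    · calc z * (n * n'⁻¹) * z⁻¹ = (z * n * z⁻¹) * (z * n' * z⁻¹)⁻¹ := by group
        _ = n⁻¹ * n' := by rw [hzn, hzn', inv_inv]
        _ = n' * n⁻¹ := hcomm n⁻¹ (M.inv_mem hnM) n' hn'M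
        _ = (n * n'⁻¹)⁻¹ := by group
  · -- `b = s`, `x = n * n'`
    refine ⟨s, Or.inl rfl, hss, hsr, n * n', M.mul_mem hnM hn'M, h1, ?_, ?_⟩
    · calc s * (n * n') * s⁻¹ = (s * n * s⁻¹) * (s * n' * s⁻¹) := by group
        _ = n' * n := by rw [← hn', hsn']
        _ = n * n' := hcomm n' hn'M n hnM
    · calc z * (n * n') * z⁻¹ = (z * n * z⁻¹) * (z * n' * z⁻¹) := by group
        _ = n⁻¹ * n'⁻¹ := by rw [hzn, hzn']
        _ = (n' * n)⁻¹ := by group
        _ = (n * n')⁻¹ := by rw [hcomm n' hn'M n hnM]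

theorem main : CFGB.{u} := by
  intro G _ _ M hM9 hexp hCM N hN hloc hD hN72
  subst hN
  have hcomm : ∀ m ∈ (M : Subgroup G), ∀ m' ∈ (M : Subgroup G), m * m' = m' * m := by
    intro m hm m' hm'
    have h1 : m ∈ Subgroup.centralizer ((M : Subgroup G) : Set G) := by
      rw [hCM]
      exact hm
    exact (Subgroup.mem_centralizer_iff.mp h1 m' hm').symm
  have hnorm : ∀ n ∈ Subgroup.normalizer ((M : Subgroup G) : Set G),
      ∀ t ∈ (M : Subgroup G), n * t * n⁻¹ ∈ (M : Subgroup G) := by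
    intro n hn t ht
    exact (Subgroup.mem_normalizer_iff.mp hn t).mp ht
  obtain ⟨S⟩ : Nonempty (Sylow 2 ↥(Subgroup.normalizer ((M : Subgroup G) : Set G))) :=
    inferInstance
  obtain ⟨e⟩ := hD S
  obtain ⟨φ, hφinj, hφN⟩ : ∃ φ : DihedralGroup 4 →* G, Function.Injective φ ∧
      ∀ g, φ g ∈ Subgroup.normalizer ((M : Subgroup G) : Set G) :=
    ⟨(Subgroup.normalizer ((M : Subgroup G) : Set G)).subtype.comp
        ((S : Subgroup _).subtype.comp e.symm.toMonoidHom),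
      (Subgroup.subtype_injective _).comp
        ((Subgroup.subtype_injective _).comp e.symm.injective),
      fun g => (e.symm g).1.2⟩
  obtain ⟨r, hr⟩ : ∃ r : G, r = φ (DihedralGroup.r 1) := ⟨_, rfl⟩
  obtain ⟨s, hs⟩ : ∃ s : G, s = φ (DihedralGroup.sr 0) := ⟨_, rfl⟩
  obtain ⟨z, hz⟩ : ∃ z : G, z = r * r := ⟨_, rfl⟩
  have hrN : r ∈ Subgroup.normalizer ((M : Subgroup G) : Set G) := by
    rw [hr]
    exact hφN _
  have hsN : s ∈ Subgroup.normalizer ((M : Subgroup G) : Set G) := by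
    rw [hs]
    exact hφN _
  have hzN : z ∈ Subgroup.normalizer ((M : Subgroup G) : Set G) := by
    rw [hz]
    exact Subgroup.mul_mem _ hrN hrN
  have hzz : z * z = 1 := by
    have h := congrArg φ dih1
    rw [map_mul, map_mul, map_one] at h
    rw [hz, hr]
    exact h
  have hss : s * s = 1 := by
    have h := congrArg φ dih2
    rw [map_mul, map_one] at h
    rw [hs]
    exact h
  have hsr : s * r * s⁻¹ = r⁻¹ := by
    have h := congrArg φ dih3
    rw [map_mul, map_mul, map_inv, map_inv] at h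
    rw [hs, hr]
    exact h
  have hz1 : z ≠ 1 := by
    intro h
    apply dih4
    apply hφinj
    rw [map_mul, map_one]
    rw [hz, hr] at h
    exact h
  have hzc : ∃ m ∈ (M : Subgroup G), z * m * z⁻¹ ≠ m := by
    by_contra hcon
    have hcon' : ∀ m ∈ (M : Subgroup G), z * m * z⁻¹ = m := by
      intro m hm
      by_contra h
      exact hcon ⟨m, hm, h⟩
    have hzC : z ∈ Subgroup.centralizer ((M : Subgroup G) : Set G) := by
      rw [Subgroup.mem_centralizer_iff]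
      intro m hm
      have h := hcon' m hm
      rw [mul_inv_eq_iff_eq_mul] at h
      exact h.symm
    rw [hCM] at hzC
    exact hz1 (eq_one_of_sq_cube z hzz (hexp z hzC))
  obtain ⟨b, hb, hbb, hbr, x, hxM, hx1, hbx, hzx⟩ :=
    exists_x (M : Subgroup G) hcomm hexp r s z (hnorm s hsN) (hnorm z hzN) hz hzz hss hsr hzc
  have hbN : b ∈ Subgroup.normalizer ((M : Subgroup G) : Set G) := by
    rcases hb with rfl | rfl
    · exact hsN
    · exact Subgroup.mul_mem _ hsN hzN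
  obtain ⟨c1, c2, c3, c4, c5, c6, c7, c8, c9, c10, c11⟩ :=
    core (M : Subgroup G) hcomm hexp r b z x (hnorm r hrN) hz hzz hbb hbr hxM hx1 hbx hzx
      (b * z) (r * x * r⁻¹) (r * b) rfl rfl rfl
  have hsyl : ¬ 27 ∣ Nat.card G := by
    intro h27
    have h := M.pow_dvd_card_of_pow_dvd_card (n := 3) (by norm_num; exact h27)
    rw [hM9] at h
    norm_num at h
  refine ⟨x, r * x * r⁻¹, b * z, b, r * b, ?_⟩
  exact
    { x3 := hexp x hxM
      y3 := hexp _ (hnorm r hrN x hxM)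
      a2 := c1
      b2 := by rw [pow_two]; exact hbb
      w2 := c2
      xy := c3
      ab := c4
      ax := c5
      ay := c6
      bx := c7
      by_ := c8
      wx := c9
      wa := c10
      x1 := hx1
      yx := c11
      xT := hxM
      yT := hnorm r hrN x hxM
      cardT := hM9
      TN := Subgroup.le_normalizer
      aN := Subgroup.mul_mem _ hbN hzN
      bN := hbN
      wN := Subgroup.mul_mem _ hrN hbN
      cardN := hN72
      nT := hnorm
      norm := fun g hg => Subgroup.mem_normalizer_fintype (fun n hn => hg n hn)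
      loc := fun t ht ht1 g hg => hloc t ht ht1
        (Subgroup.mem_centralizer_iff.mpr (fun h hh => by
          rw [Set.mem_singleton_iff] at hh
          rw [hh]
          exact hg.symm))
      syl := hsyl }

end Cfsg.Agent.Lib.Helper16.D8CFGB
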