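import Mathlib
import Cfsg.Agent.Lib.Helper40.GFStmt

/-!
Piece REDUCE of S5886 (helper16): rank reduction.
-/

set_option autoImplicit false
set_option linter.unusedVariables false
set_option linter.style.haveILetI false

universe u

namespace Cfsg.Agent.Lib.Helper16.GFREDUCE

open Cfsg.Agent.Lib.Helper40.GFStmt

section aux
variable {F L : Type u} [Field F] [Field L] [Algebra F L] {k : ℕ}

/-- `a ↦ a • v` as an `F`-linear map -/
def lmapQ (v : V k L) : L →ₗ[F] V k L where
  toFun a := a • v
  map_add' a b := add_smul a b v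
  map_smul' s a := smul_assoc s a v

theorem lmapQ_apply (v : V k L) (a : L) : (lmapQ v : L →ₗ[F] V k L) a = a • v := rfl

theorem smul_inj_of_ne (v : V k L) (hv : v ≠ 0) (a b : L) (hab : a • v = b • v) : a = b := by
  have h0 : (a - b) • v = 0 := by rw [sub_smul]; exact sub_eq_zero.mpr hab
  rcases smul_eq_zero.mp h0 with h | h
  · exact sub_eq_zero.mp h
  · exact absurd h hv

end aux

theorem main (hSep : Sep.{u}) (hFL : FL2.{u}) : Reduce.{u} := by
  intro F L _ _ _ _ k c hp g hg w v hv h2 h1
  have hr : Module.finrank F (Zsub g w v) + 2 ≤ Module.finrank F L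
      ∧ 1 ≤ Module.finrank F (Zsub g w v) := by
    unfold rk at h2 h1
    omega
  have hw : w ≠ 0 := by
    rintro rfl
    have htop : Zsub g (0 : V k L) v = ⊤ := by
      rw [eq_top_iff]
      intro a _
      exact ⟨0, by rw [smul_zero, map_zero, zero_smul]⟩
    rw [htop, finrank_top] at hr
    omega
  have hZbot : Zsub g w v ≠ ⊥ := by
    intro hb
    rw [hb, finrank_bot] at hr
    omega
  have hZtop : Zsub g w v ≠ ⊤ := by
    intro hb
    rw [hb, finrank_top] at hr
    omega
  obtain ⟨P, hPdef⟩ : ∃ P : L →ₗ[F] V k L, ∀ a, P a = g (a • w) :=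
    ⟨g.toLinearMap ∘ₗ lmapQ w, fun a => rfl⟩
  obtain ⟨Q, hQdef⟩ : ∃ Q : L →ₗ[F] V k L, ∀ a, Q a = a • v :=
    ⟨lmapQ v, fun a => rfl⟩
  have hPinj : Function.Injective P := by
    intro a b hab
    rw [hPdef, hPdef] at hab
    exact smul_inj_of_ne w hw a b (g.injective hab)
  have hQinj : Function.Injective Q := by
    intro a b hab
    rw [hQdef, hQdef] at hab
    exact smul_inj_of_ne v hv a b hab
  have hZmem : ∀ a, a ∈ Zsub g w v ↔ P a ∈ LinearMap.range Q := by
    intro a
    constructor
    · rintro ⟨a', ha'⟩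
      exact ⟨a', by rw [hQdef, hPdef, ha']⟩
    · rintro ⟨a', ha'⟩
      exact ⟨a', by rw [← hPdef, ← ha', hQdef]⟩
  -- some `a₀` with `a₀ • v` outside `g (L w)`
  obtain ⟨a₀, ha₀⟩ : ∃ a₀, Q a₀ ∉ LinearMap.range P := by
    by_contra hall
    push Not at hall
    have hle : LinearMap.range Q ≤ LinearMap.range P := by
      rintro _ ⟨a, rfl⟩
      exact hall a
    have heq : LinearMap.range Q = LinearMap.range P :=
      Submodule.eq_of_le_of_finrank_eq hle (by
        rw [LinearMap.finrank_range_of_inj hQinj, LinearMap.finrank_range_of_inj hPinj])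
    have htop : Zsub g w v = ⊤ := by
      rw [eq_top_iff]
      intro a _
      rw [hZmem, heq]
      exact ⟨a, rfl⟩
    exact hZtop htop
  obtain ⟨φ, hφw, hφy⟩ := hSep L k w (g.symm (Q a₀)) (by
    intro a ha
    apply ha₀
    refine ⟨a, ?_⟩
    rw [hPdef, ← ha, LinearEquiv.apply_symm_apply])
  obtain ⟨β, hβ⟩ : ∃ β : L →ₗ[F] L, ∀ a, β a = φ (g.symm (Q a)) :=
    ⟨(φ.restrictScalars F) ∘ₗ g.symm.toLinearMap ∘ₗ Q, fun a => rfl⟩
  have hβ0 : β a₀ ≠ 0 := by
    rw [hβ]
    exact hφy
  have hK : Submodule.comap Q (LinearMap.range P) ≤ LinearMap.ker β := by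
    intro a' ha'
    have ha'' : Q a' ∈ LinearMap.range P := ha'
    obtain ⟨z, hz⟩ := ha''
    rw [LinearMap.mem_ker, hβ, ← hz, hPdef, LinearEquiv.symm_apply_apply, map_smul, hφw,
      smul_zero]
  have hfin : Module.finrank F (Zsub g w v)
      = Module.finrank F (Submodule.comap Q (LinearMap.range P)) := by
    have hZeq : Zsub g w v = Submodule.comap P (LinearMap.range Q) := by
      ext a
      rw [hZmem]
      rfl
    have e1 : Module.finrank F (Zsub g w v)
        = Module.finrank F (Submodule.map P (Zsub g w v)) :=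
      (Submodule.equivMapOfInjective P hPinj (Zsub g w v)).finrank_eq
    have e2 : Module.finrank F (Submodule.comap Q (LinearMap.range P))
        = Module.finrank F (Submodule.map Q (Submodule.comap Q (LinearMap.range P))) :=
      (Submodule.equivMapOfInjective Q hQinj _).finrank_eq
    have e3 : Submodule.map P (Zsub g w v) = LinearMap.range P ⊓ LinearMap.range Q := by
      rw [hZeq, Submodule.map_comap_eq]
    have e4 : Submodule.map Q (Submodule.comap Q (LinearMap.range P))
        = LinearMap.range P ⊓ LinearMap.range Q := by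
      rw [Submodule.map_comap_eq, inf_comm]
    rw [e1, e2, e3, e4]
  have hT : ∀ a : L, ∃ T ∈ c.M, ∀ a' : L,
      (a' ∈ Zsub T v v ↔ a * β a' ∈ Zsub g w v) := by
    intro a
    have h0 : (a • φ) w = 0 := by rw [LinearMap.smul_apply, hφw, smul_zero]
    refine ⟨g * (LinearEquiv.transvection h0).restrictScalars F * g⁻¹,
      c.M.mul_mem (c.M.mul_mem hg (mem_tv c (a • φ) w h0)) (c.M.inv_mem hg), ?_⟩
    have hTapp : ∀ a' : L,
        (g * (LinearEquiv.transvection h0).restrictScalars F * g⁻¹) (a' • v)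
          = a' • v + g ((a * β a') • w) := by
      intro a'
      show g ((LinearEquiv.transvection h0) (g.symm (a' • v))) = _
      rw [LinearEquiv.transvection.apply, map_add, LinearEquiv.apply_symm_apply,
        LinearMap.smul_apply, hβ, hQdef, smul_eq_mul]
    intro a'
    rw [mem_Zsub, mem_Zsub, hTapp]
    constructor
    · rintro ⟨a'', h⟩
      refine ⟨a'' - a', ?_⟩
      rw [sub_smul, ← h]
      abel
    · rintro ⟨b, h⟩
      exact ⟨a' + b, by rw [h, add_smul]⟩
  by_cases hI : 2 ≤ Module.finrank F (LinearMap.range β)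
  · obtain ⟨a, ⟨i, hiI, hi0, hiZ⟩, ⟨j, hjI, hjZ⟩⟩ :=
      hFL F L hp (Zsub g w v) (LinearMap.range β) hZbot hZtop hI
    obtain ⟨a₁, rfl⟩ := hiI
    obtain ⟨a₂, rfl⟩ := hjI
    obtain ⟨T, hTM, hT⟩ := hT a
    refine ⟨T, hTM, v, v, hv, ?_⟩
    have hlt : LinearMap.ker β < Zsub T v v := by
      refine lt_of_le_of_ne (fun x hx => ?_) ?_
      · rw [hT, LinearMap.mem_ker.mp hx, mul_zero]
        exact zero_mem _
      · intro heq
        have hmem : a₁ ∈ LinearMap.ker β := by
          rw [heq, hT]
          exact hiZ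
        exact hi0 (LinearMap.mem_ker.mp hmem)
    have hne : Zsub T v v ≠ ⊤ := by
      intro htop
      have hmem : a₂ ∈ Zsub T v v := by
        rw [htop]
        trivial
      exact hjZ ((hT a₂).mp hmem)
    have f1 := Submodule.finrank_lt_finrank_of_lt hlt
    have f2 := Submodule.finrank_lt hne
    have f3 := Submodule.finrank_mono hK
    unfold rk
    omega
  · obtain ⟨a₁, ha₁⟩ : ∃ a₁, a₁ ∉ Zsub g w v := by
      by_contra hcon
      push Not at hcon
      exact hZtop (eq_top_iff.mpr fun x _ => hcon x)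
    obtain ⟨T, hTM, hT⟩ := hT (a₁ / β a₀)
    refine ⟨T, hTM, v, v, hv, ?_⟩
    have hle : LinearMap.ker β ≤ Zsub T v v := by
      intro x hx
      rw [hT, LinearMap.mem_ker.mp hx, mul_zero]
      exact zero_mem _
    have hne : Zsub T v v ≠ ⊤ := by
      intro htop
      have hmem : a₀ ∈ Zsub T v v := by
        rw [htop]
        trivial
      rw [hT, div_mul_cancel₀ _ hβ0] at hmem
      exact ha₁ hmem
    have f1 := Submodule.finrank_mono hle
    have f2 := Submodule.finrank_lt hne
    have f3 := LinearMap.finrank_range_add_finrank_ker β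
    unfold rk
    omega

end Cfsg.Agent.Lib.Helper16.GFREDUCE
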