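import Mathlib
import Cfsg.Agent.Lib.Helper26.J3Stmt
import Cfsg.Agent.Lib.Helper4.MixTools

/-!
Piece KEX of S3366 (helper16, second seat): the complement `K = T ⋊ ⟨d⟩`.
-/

set_option autoImplicit false
set_option linter.unusedVariables false
set_option linter.style.haveILetI false

universe u

namespace Cfsg.Agent.Lib.Helper16.J3KEX

open Cfsg.Agent.Lib.Helper26.J3Stmt

theorem main : KEX.{u} := by
  intro X _ hyp hZ t ht T hT8 hTt hTn d hdt hdR hd3
  obtain ⟨hfin, hES, hR27, hexp, hSL, hO2, hE⟩ := hyp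
  haveI : Finite X := hfin
  haveI : Fact (Nat.Prime 3) := ⟨by norm_num⟩
  obtain ⟨hZ3, hZR, hZcomm, hZcent, hZcentral⟩ := hZ
  obtain ⟨htt, htR, htmod, htinv⟩ := ht
  have hd1 : d ≠ 1 := by
    rintro rfl
    exact hdR (Subgroup.one_mem _)
  have hod : orderOf d = 3 := orderOf_eq_prime hd3 hd1
  have hcd : Nat.card (Subgroup.zpowers d) = 3 := by rw [Nat.card_zpowers, hod]
  have hdc : Commute d t := hdt
  -- d normalizes T
  have hdN : Subgroup.zpowers d ≤ Subgroup.normalizer (T : Set X) := by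
    rw [Subgroup.zpowers_le, Subgroup.mem_normalizer_iff]
    intro τ
    constructor
    · intro hτ
      exact hTn d hdt τ hτ
    · intro hτ
      have h := hTn d⁻¹ hdc.inv_left.eq (d * τ * d⁻¹) hτ
      have h2 : d⁻¹ * (d * τ * d⁻¹) * d⁻¹⁻¹ = τ := by group
      rwa [h2] at h
  have hK24 : Nat.card ↥(T ⊔ Subgroup.zpowers d) = 24 := by
    have h1 := Cfsg.Agent.Lib.Helper4.MixTools.card_sup_dvd T (Subgroup.zpowers d) hdN
    rw [hT8, hcd] at h1
    have h8 : 8 ∣ Nat.card ↥(T ⊔ Subgroup.zpowers d) := by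
      have h := Subgroup.card_dvd_of_le (le_sup_left : T ≤ T ⊔ Subgroup.zpowers d)
      rwa [hT8] at h
    have h3 : 3 ∣ Nat.card ↥(T ⊔ Subgroup.zpowers d) := by
      have h := Subgroup.card_dvd_of_le
        (le_sup_right : Subgroup.zpowers d ≤ T ⊔ Subgroup.zpowers d)
      rwa [hcd] at h
    exact Nat.dvd_antisymm h1
      (Nat.Coprime.mul_dvd_of_dvd_of_dvd (by norm_num : Nat.Coprime 8 3) h8 h3)
  have hKt : ∀ k ∈ T ⊔ Subgroup.zpowers d, k * t = t * k := by
    have hle : T ⊔ Subgroup.zpowers d ≤ Subgroup.centralizer ({t} : Set X) := by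
      refine sup_le ?_ ?_
      · intro τ hτ
        rw [Subgroup.mem_centralizer_iff]
        intro h hh
        rw [Set.mem_singleton_iff] at hh
        rw [hh]
        exact (hTt τ hτ).symm
      · rw [Subgroup.zpowers_le, Subgroup.mem_centralizer_iff]
        intro h hh
        rw [Set.mem_singleton_iff] at hh
        rw [hh]
        exact hdt.symm
    intro k hk
    have h := Subgroup.mem_centralizer_iff.mp (hle hk) t (Set.mem_singleton t)
    exact h.symm
  have hKR : (T ⊔ Subgroup.zpowers d) ⊓ R X = ⊥ := by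
    rw [eq_bot_iff]
    intro r hr
    rw [Subgroup.mem_bot]
    by_contra hr1
    obtain ⟨hrK, hrR⟩ := Subgroup.mem_inf.mp hr
    have hrt : r * t = t * r := hKt r hrK
    have hr3 : r ^ 3 = 1 := hexp r hrR
    have hrZ : r ∈ Zc X := by
      have h := htinv r hrR
      have h2 : t * r * t⁻¹ = r := by rw [← hrt, mul_inv_cancel_right]
      rw [h2] at h
      have h3 : r = (r * r) * (r * r) := by
        have : (r * r) * (r * r) = r ^ 3 * r := by
          rw [pow_succ, pow_succ, pow_one]
          simp only [mul_assoc]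
        rw [this, hr3, one_mul]
      rw [h3]
      exact Subgroup.mul_mem _ h h
    have hcen : ∀ x : X, x * r = r * x := hZcentral r hrZ
    have hor : orderOf r = 3 := orderOf_eq_prime hr3 hr1
    have hcr : Nat.card (Subgroup.zpowers r) = 3 := by rw [Nat.card_zpowers, hor]
    have hrN : Subgroup.zpowers r ≤ Subgroup.normalizer ((Subgroup.zpowers d : Subgroup X) : Set X) := by
      rw [Subgroup.zpowers_le, Subgroup.mem_normalizer_iff]
      intro h
      have h2 : r * h * r⁻¹ = h := by rw [← hcen h, mul_inv_cancel_right]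
      rw [h2]
    have h9 := Cfsg.Agent.Lib.Helper4.MixTools.card_sup_dvd (Subgroup.zpowers d)
      (Subgroup.zpowers r) hrN
    rw [hcd, hcr] at h9
    have hDK : Subgroup.zpowers d ⊔ Subgroup.zpowers r ≤ T ⊔ Subgroup.zpowers d :=
      sup_le le_sup_right ((Subgroup.zpowers_le).mpr hrK)
    have h24 := Subgroup.card_dvd_of_le hDK
    rw [hK24] at h24
    have h3 : Nat.card ↥(Subgroup.zpowers d ⊔ Subgroup.zpowers r) ∣ 3 := by
      have h := Nat.dvd_gcd h9 h24
      have hg : Nat.gcd (3 * 3) 24 = 3 := by norm_num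
      rwa [hg] at h
    have hle3 : Nat.card ↥(Subgroup.zpowers d ⊔ Subgroup.zpowers r) ≤ 3 :=
      Nat.le_of_dvd (by norm_num) h3
    have e1 : Subgroup.zpowers d = Subgroup.zpowers d ⊔ Subgroup.zpowers r :=
      Subgroup.eq_of_le_of_card_ge le_sup_left (by rw [hcd]; exact hle3)
    have e2 : Subgroup.zpowers r = Subgroup.zpowers d ⊔ Subgroup.zpowers r :=
      Subgroup.eq_of_le_of_card_ge le_sup_right (by rw [hcr]; exact hle3)
    have hdm : d ∈ Subgroup.zpowers r := by
      rw [e2, ← e1]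
      exact Subgroup.mem_zpowers d
    have hzr : Subgroup.zpowers r ≤ R X := (Subgroup.zpowers_le).mpr hrR
    exact hdR (hzr hdm)
  exact ⟨T ⊔ Subgroup.zpowers d, hKt, hKR, hK24⟩

end Cfsg.Agent.Lib.Helper16.J3KEX
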