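import Mathlib
import Cfsg.Agent.Lib.Helper17.PPlusOneA

/-!
# S3641 (Sylow numbers `{18, 136, 153}`): statements of the pieces

`G` acts on its 18 Sylow 17-subgroups; `act G` is the permutation representation, `(act G).ker`
its kernel and `(act G).range` the image, a transitive group of degree 18.
-/

set_option autoImplicit false

namespace Cfsg.Agent.Lib.Helper16.SNStmt

universe u

/-- The permutation representation of `G` on its Sylow 17-subgroups. -/
abbrev act (G : Type u) [Group G] : G →* Equiv.Perm (Sylow 17 G) :=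
  MulAction.toPermHom G (Sylow 17 G)

/-- The image of `G` in the symmetric group on its 18 Sylow 17-subgroups has order
`18 * 17 * d` with `d ∣ 16`. -/
def CardRange : Prop :=
  ∀ (G : Type u) [Group G] [Finite G], Nat.card (Sylow 17 G) = 18 →
    ∃ d : ℕ, d ∣ 16 ∧ Nat.card (act G).range = 18 * 17 * d

/-- Sylow numbers of a quotient divide those of the group. -/
def SylDvd : Prop :=
  ∀ (G : Type u) [Group G] [Finite G] (H : Type u) [Group H] (f : G →* H),
    Function.Surjective f → ∀ (r : ℕ) [Fact r.Prime],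
      Nat.card (Sylow r H) ∣ Nat.card (Sylow r G)

/-- If a quotient has as many Sylow `r`-subgroups as the group, the kernel normalizes every
Sylow `r`-subgroup. -/
def KerNorm : Prop :=
  ∀ (G : Type u) [Group G] [Finite G] (H : Type u) [Group H] (f : G →* H),
    Function.Surjective f → ∀ (r : ℕ) [Fact r.Prime],
      Nat.card (Sylow r H) = Nat.card (Sylow r G) →
      ∀ R : Sylow r G, f.ker ≤ Subgroup.normalizer ((R : Subgroup G) : Set G)

/-- The primes 5 and 19 cannot occur with the prescribed Sylow numbers. -/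
def No5 : Prop :=
  ∀ (G : Type u) [Group G] [Finite G], Nat.card (Sylow 17 G) = 18 →
    ∀ d : ℕ, d ∣ 16 → Nat.card (act G).range = 18 * 17 * d →
      (5 ∣ Nat.card G → Nat.card (Sylow 5 G) ≠ 136) ∧
      (19 ∣ Nat.card G → Nat.card (Sylow 19 G) ≠ 153)

/-- A 17-subgroup normalizing a Sylow 2- or 3-subgroup acts trivially on the Sylow
17-subgroups. -/
def Img17 : Prop :=
  ∀ (G : Type u) [Group G] [Finite G], Nat.card (Sylow 17 G) = 18 →
    ∀ d : ℕ, (d = 8 ∨ d = 16) → Nat.card (act G).range = 18 * 17 * d →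
    ∀ (r : ℕ) [Fact r.Prime], (r = 2 ∨ r = 3) → ∀ (R : Sylow r G) (Q : Subgroup G),
      IsPGroup 17 Q → Q ≤ Subgroup.normalizer ((R : Subgroup G) : Set G) → Q ≤ (act G).ker

/-- The Sylow 17-subgroups have order 17. -/
def DTriv : Prop :=
  Img17.{u} → ∀ (G : Type u) [Group G] [Finite G], Subgroup.center G = ⊥ →
    Nat.card (Sylow 17 G) = 18 → Nat.card (Sylow 2 G) = 153 → Nat.card (Sylow 3 G) = 136 →
    (∀ r : ℕ, r.Prime → r ∣ Nat.card G → r = 2 ∨ r = 3 ∨ r = 17) →
    ∀ d : ℕ, (d = 8 ∨ d = 16) → Nat.card (act G).range = 18 * 17 * d →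
    ∀ P : Sylow 17 G, Nat.card (P : Subgroup G) = 17

/-- The action on the Sylow 17-subgroups is faithful. -/
def KTriv : Prop :=
  KerNorm.{u} → ∀ (G : Type u) [Group G] [Finite G], Subgroup.center G = ⊥ →
    Nat.card (Sylow 17 G) = 18 →
    (∀ r : ℕ, r.Prime → r ∣ Nat.card G → r = 2 ∨ r = 3 ∨ r = 17) →
    (∀ P : Sylow 17 G, Nat.card (P : Subgroup G) = 17) →
    Nat.card (Sylow 2 (act G).range) = Nat.card (Sylow 2 G) →
    Nat.card (Sylow 3 (act G).range) = Nat.card (Sylow 3 G) →
    (act G).ker = ⊥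

/-- Sylow 2-subgroups of a transitive group of degree 18 and order `18 * 17 * d`, `d = 8, 16`,
are self-normalizing. -/
def N2 : Prop :=
  ∀ (α : Type u) [Fintype α] [DecidableEq α] (H : Subgroup (Equiv.Perm α)) (d : ℕ),
    Cfsg.Agent.Lib.Helper17.PPlusOneA.Setup H 17 d → (d = 8 ∨ d = 16) →
    Nat.card (Sylow 2 H) = 153

/-- The number of Sylow 3-subgroups of such a group with an element of order 9. -/
def N3 : Prop :=
  ∀ (α : Type u) [Fintype α] [DecidableEq α] (H : Subgroup (Equiv.Perm α)) (d : ℕ),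
    Cfsg.Agent.Lib.Helper17.PPlusOneA.Setup H 17 d → (d = 8 ∨ d = 16) →
    (∃ g : H, orderOf g = 9) → Nat.card (Sylow 3 H) ∣ 136 → Nat.card (Sylow 3 H) = 136

/-- `PSL(2, 17)` has an element of order 9. -/
def O9A : Prop :=
  ∃ g : Matrix.ProjectiveSpecialLinearGroup (Fin 2) (ZMod 17), orderOf g = 9

/-- `PGL(2, 17)` has an element of order 9. -/
def O9B : Prop :=
  ∃ g : Matrix.ProjGenLinGroup (Fin 2) (ZMod 17), orderOf g = 9

end Cfsg.Agent.Lib.Helper16.SNStmt
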